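import Mathlib

set_option autoImplicit false

namespace Cfsg.Agent.Lib.DLS
open Module Function

universe u v w

/-- L3 -/
theorem pad_GL {G : Type u} [Group G] {ι : Type v} [Fintype ι] [DecidableEq ι] {F : Type w}
    [Field F] (ρ : G →* Matrix ι ι F) (hρ : Injective ρ) (n : ℕ) (hn : Fintype.card ι ≤ n) :
    ∃ φ : G →* Matrix.GeneralLinearGroup (Fin n) F, Injective φ := by
  have hcard : Fintype.card (ι ⊕ Fin (n - Fintype.card ι)) = n := by
    rw [Fintype.card_sum, Fintype.card_fin]; omega
  let e : ι ⊕ Fin (n - Fintype.card ι) ≃ Fin n := Fintype.equivFinOfCardEq hcard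
  let blk : Matrix ι ι F →*
      Matrix (ι ⊕ Fin (n - Fintype.card ι)) (ι ⊕ Fin (n - Fintype.card ι)) F :=
    { toFun := fun A => Matrix.fromBlocks A 0 0 1
      map_one' := Matrix.fromBlocks_one
      map_mul' := fun A B => by simp [Matrix.fromBlocks_multiply] }
  have hblk : Injective blk := by
    intro A B h
    exact (Matrix.fromBlocks_inj.mp h).1
  let ψ : G →* Matrix (Fin n) (Fin n) F :=
    ((Matrix.reindexAlgEquiv F F e).toMulEquiv.toMonoidHom.comp blk).comp ρ
  have hψ : Injective ψ :=
    ((Matrix.reindexAlgEquiv F F e).injective.comp hblk).comp hρ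
  refine ⟨MonoidHom.toHomUnits ψ, fun g g' h => hψ ?_⟩
  have := congrArg Units.val h
  simpa using this

end Cfsg.Agent.Lib.DLS
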