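import Mathlib
import Cfsg.Agent.S0261
import Cfsg.Agent.Lib.Helper48.SpWreath

set_option autoImplicit false

namespace Cfsg.Agent.Lib.DLS
open Module Function
open scoped commutatorElement

universe u v w

theorem s3_quat_not_comm (n : ℕ) (hn : 2 ≤ n) :
    (QuaternionGroup.a 1 : QuaternionGroup n) * QuaternionGroup.xa 0 ≠
      QuaternionGroup.xa 0 * QuaternionGroup.a 1 := by
  intro h
  rw [QuaternionGroup.a_mul_xa, QuaternionGroup.xa_mul_a] at h
  have h1 : (0 - 1 : ZMod (2 * n)) = 0 + 1 := QuaternionGroup.xa.inj h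
  have h2 : ((2 : ℕ) : ZMod (2 * n)) = 0 := by
    have : (2 : ZMod (2 * n)) = 0 := by linear_combination -h1
    exact_mod_cast this
  rw [ZMod.natCast_eq_zero_iff] at h2
  have := Nat.le_of_dvd (by norm_num) h2
  omega

/-- S3 -/
theorem sp_base {F : Type u} [Field F] [Fintype F] (hq : Odd (Fintype.card F)) :
    ∃ (G : Type u) (_ : Group G) (_ : Finite G) (ρ : G →* Matrix.symplecticGroup (Fin 1) F),
      IsPGroup 2 G ∧ derivedSeries G 1 ≠ ⊥ ∧ Injective ρ := by
  classical
  obtain ⟨P⟩ : Nonempty (Sylow 2 (Matrix.SpecialLinearGroup (Fin 2) F)) := inferInstance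
  obtain ⟨k, hk, ⟨e⟩⟩ := Cfsg.Agent.S0261.result hq P
  let c : Matrix.SpecialLinearGroup (Fin 2) F →* (Fin 1 → Matrix.SpecialLinearGroup (Fin 2) F) :=
    { toFun := fun g _ => g
      map_one' := rfl
      map_mul' := fun _ _ => rfl }
  refine ⟨↥(P : Subgroup (Matrix.SpecialLinearGroup (Fin 2) F)), inferInstance, inferInstance,
    ((Cfsg.Agent.Lib.Helper48.spDiag F 1).comp c).comp
      (P : Subgroup (Matrix.SpecialLinearGroup (Fin 2) F)).subtype, P.2, ?_, ?_⟩
  · intro hbot
    rw [derivedSeries_one] at hbot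
    have hcomm : ∀ x y : ↥(P : Subgroup (Matrix.SpecialLinearGroup (Fin 2) F)), x * y = y * x := by
      intro x y
      have : ⁅x, y⁆ ∈ commutator ↥(P : Subgroup (Matrix.SpecialLinearGroup (Fin 2) F)) :=
        Subgroup.commutator_mem_commutator (Subgroup.mem_top x) (Subgroup.mem_top y)
      rw [hbot, Subgroup.mem_bot, commutatorElement_eq_one_iff_mul_comm] at this
      exact this
    have h2 : 2 ≤ 2 ^ k := by
      calc 2 = 2 ^ 1 := rfl
        _ ≤ 2 ^ k := Nat.pow_le_pow_right (by norm_num) hk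
    apply s3_quat_not_comm (2 ^ k) h2
    have := hcomm (e.symm (QuaternionGroup.a 1)) (e.symm (QuaternionGroup.xa 0))
    rw [← map_mul, ← map_mul] at this
    exact e.symm.injective this
  · intro x y hxy
    apply Subtype.ext
    have h1 := congrArg Subtype.val hxy
    simp only [MonoidHom.comp_apply, Cfsg.Agent.Lib.Helper48.spDiag, MonoidHom.coe_mk,
      OneHom.coe_mk, Matrix.fromBlocks_inj] at h1
    obtain ⟨h00, h01, h10, h11⟩ := h1
    have f : ∀ d d' : Fin 1 → F, Matrix.diagonal d = Matrix.diagonal d' → d 0 = d' 0 :=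
      fun d d' h => congrFun (Matrix.diagonal_injective h) 0
    apply Subtype.ext
    ext i j
    fin_cases i <;> fin_cases j
    · exact f _ _ h00
    · exact f _ _ h01
    · exact f _ _ h10
    · exact f _ _ h11

end Cfsg.Agent.Lib.DLS
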